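import Mathlib
import Cfsg.Agent.S4959
import Cfsg.Agent.S4956
set_option linter.all false

-- part: H475/KGL/Defs
section
/-!
# The class number of a coprime linear group is less than the order of the module

Project KGL (hub helper475): `k(G) ≤ |V| - 1` for a group `G` of order prime to `p` acting faithfully on a nonzero
finite vector space `V` over `ZMod p` (statements S4968, S4533, S4532).

A linear group is a subgroup `G` of `V ≃ₗ[ZMod p] V`.

* `kc G` : the class number;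
* `Bd p V` : the theorem for all linear groups on `V`;
* `img G W` : the linear group induced on the subspace `W` of `V` by its stabiliser in `G`;
* `Block G W` : `W ≠ 0` and the sum of the `G`-translates of `W` is direct;
* `Prim H` : irreducible and primitive;
* `RV p H` : there is a real vector;
* `Small H` : `2 k(N) ≤ |W|` for all subnormal subgroups `N` of `H`;
* `Exc H` : the exceptional case `|W| = 25`;
* `BSit` : the basic situation after the tensor step; `BGood`, `BExc` : its two outcomes.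
-/

set_option autoImplicit false

namespace Cfsg.Agent.H475.KGL

open Subgroup

universe u v

/-- The class number. -/
noncomputable abbrev kc (G : Type*) [Group G] : ℕ := Nat.card (ConjClasses G)

/-- `N` is a subnormal subgroup of `H`. -/
def SN {G : Type*} [Group G] (N H : Subgroup G) : Prop := N ≤ H ∧ (N.subgroupOf H).IsSubnormal

section

variable {p : ℕ} {V : Type*} [AddCommGroup V] [Module (ZMod p) V]

/-- `G` is regular on the nonzero vectors. -/
def Reg (G : Subgroup (V ≃ₗ[ZMod p] V)) : Prop :=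
  (∀ v : V, v ≠ 0 → ∀ w : V, w ≠ 0 → ∃ g ∈ G, g v = w) ∧ ∀ g ∈ G, ∀ v : V, v ≠ 0 → g v = v → g = 1

/-- The linear group on `W` induced by the stabiliser of `W` in `G`. -/
def img (G : Subgroup (V ≃ₗ[ZMod p] V)) (W : Submodule (ZMod p) V) :
    Subgroup (W ≃ₗ[ZMod p] W) where
  carrier := {a | ∃ g ∈ G, ∀ w : W, (a w : V) = g w}
  one_mem' := ⟨1, G.one_mem, fun w => rfl⟩
  mul_mem' := by
    rintro a b ⟨g, hg, ha⟩ ⟨h, hh, hb⟩
    refine ⟨g * h, G.mul_mem hg hh, fun w => ?_⟩
    change (a (b w) : V) = g (h w)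
    rw [ha, hb]
  inv_mem' := by
    rintro a ⟨g, hg, ha⟩
    refine ⟨g⁻¹, G.inv_mem hg, fun w => ?_⟩
    change ((a.symm w : W) : V) = g.symm w
    rw [LinearEquiv.eq_symm_apply, ← ha, LinearEquiv.apply_symm_apply]

theorem mem_img {G : Subgroup (V ≃ₗ[ZMod p] V)} {W : Submodule (ZMod p) V} {a : W ≃ₗ[ZMod p] W} :
    a ∈ img G W ↔ ∃ g ∈ G, ∀ w : W, (a w : V) = g w := Iff.rfl

/-- `G` leaves only the trivial subspaces invariant. -/
def Irr (G : Subgroup (V ≃ₗ[ZMod p] V)) : Prop :=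
  ∀ U : Submodule (ZMod p) V, (∀ g ∈ G, ∀ u ∈ U, g u ∈ U) → U = ⊥ ∨ U = ⊤

/-- The set of `G`-translates of `W`. -/
def trans (G : Subgroup (V ≃ₗ[ZMod p] V)) (W : Submodule (ZMod p) V) :
    Set (Submodule (ZMod p) V) :=
  {Y | ∃ g ∈ G, Y = W.map (g : V →ₗ[ZMod p] V)}

/-- `W` is a block: it is nonzero and the sum of its translates is direct. -/
def Block (G : Subgroup (V ≃ₗ[ZMod p] V)) (W : Submodule (ZMod p) V) : Prop :=
  W ≠ ⊥ ∧ sSupIndep (trans G W)

/-- Irreducible and primitive. -/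
def Prim (H : Subgroup (V ≃ₗ[ZMod p] V)) : Prop :=
  Nontrivial V ∧ Irr H ∧ ∀ U : Submodule (ZMod p) V, Block H U → U = ⊤

/-- There is a real vector `w`: the stabiliser of `w` in `H` has a faithful invariant subspace `U ≠ 0` with a
nondegenerate invariant bilinear form. -/
def RV (H : Subgroup (V ≃ₗ[ZMod p] V)) : Prop :=
  ∃ (w : V) (U : Submodule (ZMod p) V) (β : V → V → ZMod p), U ≠ ⊥ ∧
    (∀ h ∈ H, h w = w → ∀ u ∈ U, h u ∈ U) ∧
    (∀ h ∈ H, h w = w → (∀ u ∈ U, h u = u) → h = 1) ∧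
    (∀ u ∈ U, ∀ u' ∈ U, ∀ x ∈ U, β (u + u') x = β u x + β u' x) ∧
    (∀ u ∈ U, ∀ x ∈ U, ∀ x' ∈ U, β u (x + x') = β u x + β u x') ∧
    (∀ h ∈ H, h w = w → ∀ u ∈ U, ∀ x ∈ U, β (h u) (h x) = β u x) ∧
    ∀ u ∈ U, (∀ x ∈ U, β u x = 0) → u = 0

/-- All subnormal subgroups have small class number. -/
def Small (H : Subgroup (V ≃ₗ[ZMod p] V)) : Prop :=
  ∀ N : Subgroup (V ≃ₗ[ZMod p] V), SN N H → 2 * kc N ≤ Nat.card V

/-- The exceptional case (`p = 5`, the normaliser of `Q₈` in `GL₂(5)` and some subgroups of it). -/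
def Exc (H : Subgroup (V ≃ₗ[ZMod p] V)) : Prop :=
  Nat.card V = 25 ∧ Nat.card H ≤ 96 ∧ ∀ N : Subgroup (V ≃ₗ[ZMod p] V), SN N H → kc N ≤ 16

end

/-- The theorem for all linear groups on `V`. -/
def Bd (p : ℕ) (V : Type*) [AddCommGroup V] [Module (ZMod p) V] : Prop :=
  ∀ G : Subgroup (V ≃ₗ[ZMod p] V), ¬ p ∣ Nat.card G →
    kc G ≤ Nat.card V - 1 ∧ (kc G = Nat.card V - 1 → Reg G)

/-- The basic situation.  `H` is a finite group of order prime to `p` with normal subgroups `A < M ≤ C`; `C` acts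
faithfully on the vector space `W` over `ZMod p`, `M` acts irreducibly on `W`; the endomorphisms of `W`
commuting with `M` commute with `C`, and there are `p ^ e` of them (so they form a field with `p ^ e` elements and `W`
is an absolutely irreducible module for `M` over it); `A` is central in `M` and maximal among the abelian normal
subgroups of `H` (inside `M`), and `M / A` is a chief factor of `H`. -/
structure BSit (p e : ℕ) {H : Type u} [Group H] (A M C : Subgroup H) {W : Type v} [AddCommGroup W]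
    [Module (ZMod p) W] (ρ : C →* (W ≃ₗ[ZMod p] W)) : Prop where
  cop : ¬ p ∣ Nat.card H
  nA : A.Normal
  nM : M.Normal
  nC : C.Normal
  lt : A < M
  le : M ≤ C
  com : ∀ a ∈ A, ∀ x ∈ M, a * x = x * a
  max : ∀ B : Subgroup H, B.Normal → A ≤ B → B ≤ M → (∀ a ∈ B, ∀ b ∈ B, a * b = b * a) → B = A
  chief : ∀ B : Subgroup H, B.Normal → A ≤ B → B ≤ M → B = A ∨ B = M
  inj : Function.Injective ρ
  nt : Nontrivial W
  irr : ∀ U : Submodule (ZMod p) W, (∀ m : C, (m : H) ∈ M → ∀ u ∈ U, ρ m u ∈ U) → U = ⊥ ∨ U = ⊤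
  endC : ∀ f : W →ₗ[ZMod p] W, (∀ m : C, (m : H) ∈ M → ∀ w, f (ρ m w) = ρ m (f w)) →
    ∀ (c : C) (w : W), f (ρ c w) = ρ c (f w)
  endq : Nat.card {f : W →ₗ[ZMod p] W // ∀ m : C, (m : H) ∈ M → ∀ w, f (ρ m w) = ρ m (f w)} = p ^ e

/-- The good outcome in the basic situation. -/
def BGood (e : ℕ) {H : Type u} [Group H] (C : Subgroup H) (W : Type v) : Prop :=
  ∀ N : Subgroup H, N.IsSubnormal → N ≤ C → 2 * e * kc N ≤ Nat.card W

/-- The exceptional outcome in the basic situation. -/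
def BExc (p e : ℕ) {H : Type u} [Group H] (C : Subgroup H) (W : Type v) : Prop :=
  p = 5 ∧ e = 1 ∧ Nat.card W = 25 ∧ Nat.card C ≤ 96 ∧
    ∀ N : Subgroup H, N.IsSubnormal → N ≤ C → kc N ≤ 16

end Cfsg.Agent.H475.KGL
end

-- part: H475/KGL/Rows
section
/-!
# Project KGL: statements of the rows

* `Perm2` : S4197; `PermB` : the weighted class sum of permutation groups of order prime to 5;
* `EOut`, `EBd` : the symplectic type case; `LBp`, `RowS` : the almost simple case.
-/

set_option autoImplicit false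

namespace Cfsg.Agent.H475.KGL

open Subgroup

universe u v

/-- S4197. -/
def Perm2 : Prop := ∀ (n : ℕ) (S : Subgroup (Equiv.Perm (Fin n))), kc S ≤ 2 ^ (n - 1)

/-- S4199 for the prime 5. -/
def Prim5 : Prop := ∀ (n : ℕ), 7 ≤ n → ∀ (S : Subgroup (Equiv.Perm (Fin n))),
  MulAction.IsPreprimitive S (Fin n) → ¬ 5 ∣ Nat.card S → kc S ^ 2 ≤ 2 ^ n

/-- The weight `16 ^ (number of fixed points) * 96 ^ (number of nontrivial cycles)` of a permutation of `m` points. -/
def wt {m : ℕ} (g : Equiv.Perm (Fin m)) : ℕ := 16 ^ (m - g.support.card) * 96 ^ (Multiset.card g.cycleType)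

/-- The weighted class sum of a permutation group of degree `m` and order prime to `5` is at most `16 · 25 ^ (m - 1)`
(`f` picks a representative in every class). -/
def PermB : Prop := ∀ (m : ℕ), 1 ≤ m → ∀ (S : Subgroup (Equiv.Perm (Fin m))), ¬ 5 ∣ Nat.card S →
  ∀ f : ConjClasses S → S, (∀ c, ConjClasses.mk (f c) = c) →
    ∑ᶠ c : ConjClasses S, wt (f c : Equiv.Perm (Fin m)) ≤ 16 * 25 ^ (m - 1)

/-- The outcome of the structural analysis of the basic situation with `M / A` elementary abelian of order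
`r ^ (2 n)`. -/
def EOut (p e r n : ℕ) {H : Type u} [Group H] (C : Subgroup H) : Prop :=
  ∃ (ω : LinearMap.BilinForm (ZMod r) (Fin (2 * n) → ZMod r))
    (Hb : Subgroup ((Fin (2 * n) → ZMod r) ≃ₗ[ZMod r] (Fin (2 * n) → ZMod r))),
    ω.IsAlt ∧ ω.Nondegenerate ∧ ¬ p ∣ Nat.card Hb ∧ Irr Hb ∧
    (r = 2 → ∀ h ∈ Hb, ∀ u v, ω (h u) (h v) = ω u v) ∧
    ∀ N : Subgroup H, N.IsSubnormal → N ≤ C → ∃ X, SN X Hb ∧ (∀ x ∈ X, ∀ u v, ω (x u) (x v) = ω u v) ∧
      r * kc N ≤ (p ^ e - 1) * (r ^ (2 * n) + r - 1) * kc X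

/-- Class numbers of subnormal subgroups of irreducible subgroups, of order prime to `p`, of `Sp_{2n}(2)`. -/
def EBd (p n κ : ℕ) : Prop :=
  ∀ (ω : LinearMap.BilinForm (ZMod 2) (Fin (2 * n) → ZMod 2))
    (Hb : Subgroup ((Fin (2 * n) → ZMod 2) ≃ₗ[ZMod 2] (Fin (2 * n) → ZMod 2))),
    ω.IsAlt → ω.Nondegenerate → (∀ h ∈ Hb, ∀ u v, ω (h u) (h v) = ω u v) → ¬ p ∣ Nat.card Hb → Irr Hb →
    ∀ X, SN X Hb → kc X ≤ κ

/-- `δ` is a lower bound for the degrees of the nontrivial projective representations of `T` in characteristic `p`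
(representations of perfect central extensions of order prime to `p`). -/
def LBp (T : Type) [Group T] (p δ : ℕ) : Prop :=
  ∀ (L : Type) [Group L] [Finite L], ¬ p ∣ Nat.card L → commutator L = ⊤ →
    ∀ π : L →* T, Function.Surjective π → π.ker ≤ center L →
    ∀ (F : Type) [Field F] [Finite F] [CharP F p] (n : ℕ) (ρ : L →* GL (Fin n) F), ρ ≠ 1 → δ ≤ n

/-- `κ` is an upper bound for the class numbers of the groups between `T` and `Aut T`. -/
def UBk (T : Type) [Group T] (κ : ℕ) : Prop :=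
  ∀ Y : Subgroup (MulAut T), (MulAut.conj : T →* MulAut T).range ≤ Y → kc Y ≤ κ

/-- The row of the simple group `T`. -/
def RowS (T : Type) [Group T] : Prop :=
  ∀ p : ℕ, p.Prime → ¬ p ∣ Nat.card T → ∃ κ δ : ℕ, UBk T κ ∧ LBp T p δ ∧ 2 ≤ δ ∧ 2 * κ ≤ p ^ (δ - 1)

end Cfsg.Agent.H475.KGL
end

-- part: H354/KGL/T1
section
/-!
# KGL, T1: a real vector gives the bound (helper354)
-/

set_option autoImplicit false

namespace Cfsg.Agent.H354.KGL.T1

open Cfsg.Agent.H475.KGL Subgroup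

universe v

section

variable {p : ℕ} [Fact p.Prime] {V : Type v} [AddCommGroup V] [Module (ZMod p) V]

/-- the action of `G` on `Multiplicative V` -/
def act (G : Subgroup (V ≃ₗ[ZMod p] V)) : G →* MulAut (Multiplicative V) where
  toFun g := AddEquiv.toMultiplicative (g : V ≃ₗ[ZMod p] V).toAddEquiv
  map_one' := rfl
  map_mul' _ _ := rfl

theorem act_apply (G : Subgroup (V ≃ₗ[ZMod p] V)) (g : G) (v : V) :
    act G g (Multiplicative.ofAdd v) = Multiplicative.ofAdd ((g : V ≃ₗ[ZMod p] V) v) := rfl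

/-- the semidirect product -/
abbrev SD (G : Subgroup (V ≃ₗ[ZMod p] V)) := Multiplicative V ⋊[act G] G

/-- the normal subgroup -/
abbrev VV (G : Subgroup (V ≃ₗ[ZMod p] V)) : Subgroup (SD G) :=
  (SemidirectProduct.inl : Multiplicative V →* SD G).range

/-- the complement -/
abbrev GG (G : Subgroup (V ≃ₗ[ZMod p] V)) : Subgroup (SD G) :=
  (SemidirectProduct.inr : G →* SD G).range

variable (G : Subgroup (V ≃ₗ[ZMod p] V))

/-- the element `v` of the semidirect product -/
def ι (v : V) : SD G := SemidirectProduct.inl (Multiplicative.ofAdd v)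

theorem ι_mem (v : V) : ι G v ∈ VV G := ⟨_, rfl⟩

theorem mem_VV {x : SD G} : x ∈ VV G ↔ ∃ v : V, x = ι G v :=
  ⟨fun ⟨a, ha⟩ => ⟨a.toAdd, ha.symm⟩, fun ⟨v, hv⟩ => hv ▸ ι_mem G v⟩

theorem ι_inj {v w : V} (h : ι G v = ι G w) : v = w :=
  Multiplicative.ofAdd.injective (SemidirectProduct.inl_injective h)

theorem ι_zero : ι G 0 = 1 := map_one SemidirectProduct.inl

theorem ι_add (v w : V) : ι G (v + w) = ι G v * ι G w :=
  map_mul (SemidirectProduct.inl : Multiplicative V →* SD G) _ _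

theorem left_ι (v : V) : Multiplicative.toAdd (ι G v).left = v := rfl

theorem conj_ι (g : G) (v : V) :
    (SemidirectProduct.inr g : SD G) * ι G v * (SemidirectProduct.inr g)⁻¹ =
      ι G ((g : V ≃ₗ[ZMod p] V) v) := by
  rw [ι, ← map_inv, ← SemidirectProduct.inl_aut, act_apply]
  rfl

theorem comm_of_fix (k : G) (u : V) (h : (k : V ≃ₗ[ZMod p] V) u = u) :
    (SemidirectProduct.inr k : SD G) ∈ centralizer ({ι G u} : Set (SD G)) := by
  rw [mem_centralizer_iff]
  intro y hy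
  rw [Set.mem_singleton_iff.1 hy, eq_comm, ← mul_inv_eq_iff_eq_mul, conj_ι, h]

instance : (VV G).Normal := by
  have : VV G = (SemidirectProduct.rightHom : SD G →* G).ker :=
    SemidirectProduct.range_inl_eq_ker_rightHom
  rw [this]
  infer_instance

theorem isCompl : IsComplement' (VV G) (GG G) := by
  refine isComplement'_of_disjoint_and_mul_eq_univ ?_ ?_
  · rw [disjoint_iff, eq_bot_iff]
    rintro x ⟨⟨a, rfl⟩, ⟨b, hb⟩⟩
    have h1 : (SemidirectProduct.inr b : SD G).right = (SemidirectProduct.inl a : SD G).right := by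
      rw [hb]
    rw [SemidirectProduct.right_inl, SemidirectProduct.right_inr] at h1
    rw [mem_bot, ← hb, h1, map_one]
  · rw [Set.eq_univ_iff_forall]
    intro x
    rw [← SemidirectProduct.inl_left_mul_inr_right x]
    exact Set.mul_mem_mul ⟨_, rfl⟩ ⟨_, rfl⟩

theorem VV_exp : ∀ v ∈ VV G, v ^ p = 1 := by
  intro x hx
  obtain ⟨v, rfl⟩ := (mem_VV G).1 hx
  have h : ∀ n : ℕ, ι G v ^ n = ι G (n • v) := by
    intro n
    induction n with
    | zero => rw [pow_zero, zero_smul, ι_zero]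
    | succ n ih => rw [pow_succ, ih, add_smul, one_smul, ι_add]
  rw [h, ← ι_zero G]
  congr 1
  rw [← Nat.cast_smul_eq_nsmul (ZMod p), ZMod.natCast_self, zero_smul]

theorem VV_comm : ∀ a ∈ VV G, ∀ b ∈ VV G, a * b = b * a := by
  rintro _ ⟨a, rfl⟩ _ ⟨b, rfl⟩
  rw [← map_mul, ← map_mul, mul_comm]

theorem VV_self : centralizer (VV G : Set (SD G)) = VV G := by
  apply le_antisymm
  · intro x hx
    rw [mem_centralizer_iff] at hx
    have h1 : x.right = 1 := by
      apply Subtype.ext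
      apply LinearEquiv.ext
      intro v
      have h2 := hx (ι G v) (ι_mem G v)
      have h3 : (SemidirectProduct.inr x.right : SD G) * ι G v *
          (SemidirectProduct.inr x.right)⁻¹ = ι G v := by
        have h4 : (SemidirectProduct.inr x.right : SD G) =
            (SemidirectProduct.inl x.left)⁻¹ * x := by
          rw [eq_inv_mul_iff_mul_eq, SemidirectProduct.inl_left_mul_inr_right]
        have h5 : (SemidirectProduct.inl x.left : SD G)⁻¹ * ι G v * SemidirectProduct.inl x.left =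
            ι G v := by
          rw [mul_assoc, VV_comm G _ (ι_mem G v) _ ⟨_, rfl⟩, ← mul_assoc, inv_mul_cancel, one_mul]
        rw [h4, mul_inv_rev, inv_inv]
        calc (SemidirectProduct.inl x.left)⁻¹ * x * ι G v * (x⁻¹ * SemidirectProduct.inl x.left)
            = (SemidirectProduct.inl x.left)⁻¹ * (x * ι G v * x⁻¹) *
                SemidirectProduct.inl x.left := by group
          _ = (SemidirectProduct.inl x.left)⁻¹ * ι G v * SemidirectProduct.inl x.left := by
                rw [← h2, mul_inv_cancel_right]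
          _ = ι G v := h5
      rw [conj_ι] at h3
      exact ι_inj G h3
    refine ⟨x.left, ?_⟩
    conv_rhs => rw [← SemidirectProduct.inl_left_mul_inr_right x]
    rw [h1, map_one, mul_one]
  · intro x hx
    rw [mem_centralizer_iff]
    intro y hy
    exact VV_comm G y hy x hx

theorem card_VV : Nat.card (VV G) = Nat.card V := by
  rw [Nat.card_congr (MonoidHom.ofInjective
    (SemidirectProduct.inl_injective : Function.Injective
      (SemidirectProduct.inl : Multiplicative V →* SD G))).toEquiv.symm]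
  exact Nat.card_congr Multiplicative.toAdd

theorem card_GG : Nat.card (GG G) = Nat.card G :=
  Nat.card_congr (MonoidHom.ofInjective
    (SemidirectProduct.inr_injective : Function.Injective
      (SemidirectProduct.inr : G →* SD G))).toEquiv.symm

theorem index_VV : (VV G).index = Nat.card G := by
  rw [(isCompl G).symm.index_eq_card, card_GG]

/-- `k(V G) ≤ |V|`. -/
theorem card_le [Finite V] (hG : ¬ p ∣ Nat.card G) (h : RV G) :
    Nat.card (ConjClasses (SD G)) ≤ Nat.card V := by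
  obtain ⟨w, U, β, hU, h1, h2, h3, h4, h5, h6⟩ := h
  have : Finite (V ≃ₗ[ZMod p] V) :=
    Finite.of_injective (fun e : V ≃ₗ[ZMod p] V => (e : V → V)) DFunLike.coe_injective
  have : Finite G := inferInstance
  have : Finite (SD G) := Finite.of_injective (fun x : SD G => (x.left, x.right)) (by
    intro x y hxy
    rw [Prod.mk.injEq] at hxy
    exact SemidirectProduct.ext hxy.1 hxy.2)
  let UU : Subgroup (SD G) :=
    { carrier := {x | ∃ u ∈ U, x = ι G u}
      one_mem' := ⟨0, U.zero_mem, (ι_zero G).symm⟩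
      mul_mem' := by
        rintro _ _ ⟨a, ha, rfl⟩ ⟨b, hb, rfl⟩
        exact ⟨a + b, U.add_mem ha hb, (ι_add G a b).symm⟩
      inv_mem' := by
        rintro _ ⟨a, ha, rfl⟩
        refine ⟨-a, U.neg_mem ha, ?_⟩
        rw [inv_eq_iff_mul_eq_one, ← ι_add, add_neg_cancel, ι_zero] }
  have hmem : ∀ x, x ∈ UU ↔ ∃ u ∈ U, x = ι G u := fun x => Iff.rfl
  have key := Cfsg.Agent.S4959.result p (VV G) (VV_exp G) (by rw [index_VV]; exact hG) (VV_self G)
    (GG G) (isCompl G) (ι G w) (ι_mem G w) UU (by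
      rintro x ⟨u, hu, rfl⟩
      exact ι_mem G u) (by
      rintro _ ⟨g, rfl⟩ hg x ⟨u, hu, rfl⟩
      rw [conj_ι] at hg ⊢
      exact ⟨_, h1 g g.2 (ι_inj G hg) u hu, rfl⟩) (by
      rintro _ ⟨g, rfl⟩ hg hg2
      rw [conj_ι] at hg
      have : (g : V ≃ₗ[ZMod p] V) = 1 := by
        refine h2 g g.2 (ι_inj G hg) fun u hu => ?_
        have h7 := hg2 (ι G u) ⟨u, hu, rfl⟩
        rw [conj_ι] at h7
        exact ι_inj G h7
      have h8 : g = 1 := Subtype.ext this
      rw [h8, map_one])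
    (fun x y => β (Multiplicative.toAdd x.left) (Multiplicative.toAdd y.left)) (by
      rintro x ⟨u, hu, rfl⟩ y ⟨u', hu', rfl⟩ z ⟨t, ht, rfl⟩
      rw [← ι_add, left_ι, left_ι, left_ι, left_ι]
      exact h3 u hu u' hu' t ht) (by
      rintro x ⟨u, hu, rfl⟩ y ⟨u', hu', rfl⟩ z ⟨t, ht, rfl⟩
      rw [← ι_add, left_ι, left_ι, left_ι, left_ι]
      exact h4 u hu u' hu' t ht) (by
      rintro _ ⟨g, rfl⟩ hg x ⟨u, hu, rfl⟩ y ⟨t, ht, rfl⟩
      rw [conj_ι] at hg
      rw [conj_ι, conj_ι, left_ι, left_ι, left_ι, left_ι]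
      exact h5 g g.2 (ι_inj G hg) u hu t ht) (by
      rintro x ⟨u, hu, rfl⟩ hx
      rw [h6 u hu fun t ht => ?_, ι_zero]
      have h7 := hx (ι G t) ⟨t, ht, rfl⟩
      rw [left_ι, left_ι] at h7
      exact h7)
  rw [card_VV] at key
  exact key

theorem eq_bot_of_kc_eq_one {X : Type*} [Group X] (A : Subgroup X) (h : kc A = 1) : A = ⊥ := by
  rw [eq_bot_iff]
  intro a ha
  have h1 : Subsingleton (ConjClasses A) := (Nat.card_eq_one_iff_unique.1 h).1
  have h2 : ConjClasses.mk (⟨a, ha⟩ : A) = ConjClasses.mk (1 : A) := Subsingleton.elim _ _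
  rw [ConjClasses.mk_eq_mk_iff_isConj, isConj_comm, isConj_one_right] at h2
  rw [mem_bot]
  exact congrArg Subtype.val h2

theorem kc_pos {X : Type*} [Group X] [Finite X] (A : Subgroup X) : 1 ≤ kc A := by
  have : Finite A := inferInstance
  have : Nonempty (ConjClasses A) := ⟨ConjClasses.mk 1⟩
  exact Nat.card_pos

theorem kc_congr {X Y : Type*} [Group X] [Group Y] (e : X ≃* Y) : kc X = kc Y :=
  Nat.card_congr ⟨ConjClasses.map e.toMonoidHom, ConjClasses.map e.symm.toMonoidHom, by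
    intro c
    obtain ⟨a, rfl⟩ := ConjClasses.exists_rep c
    change ConjClasses.mk (e.symm (e a)) = ConjClasses.mk a
    rw [e.symm_apply_apply], by
    intro c
    obtain ⟨a, rfl⟩ := ConjClasses.exists_rep c
    change ConjClasses.mk (e (e.symm a)) = ConjClasses.mk a
    rw [e.apply_symm_apply]⟩

end

variable {p : ℕ} [Fact p.Prime] {V : Type*} [AddCommGroup V] [Module (ZMod p) V] [Finite V]
  [Nontrivial V]

/-- `k(V G) ≤ |V|` implies `k(G) ≤ |V| - 1`, with equality only if `G` is regular. -/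
theorem bd_of_le (G : Subgroup (V ≃ₗ[ZMod p] V)) (hG : ¬ p ∣ Nat.card G)
    (key : Nat.card (ConjClasses (SD G)) ≤ Nat.card V) :
    kc G ≤ Nat.card V - 1 ∧ (kc G = Nat.card V - 1 → Reg G) := by
  classical
  have : Finite (V ≃ₗ[ZMod p] V) :=
    Finite.of_injective (fun e : V ≃ₗ[ZMod p] V => (e : V → V)) DFunLike.coe_injective
  have : Finite G := inferInstance
  have : Finite (SD G) := Finite.of_injective (fun x : SD G => (x.left, x.right)) (by
    intro x y hxy
    rw [Prod.mk.injEq] at hxy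
    exact SemidirectProduct.ext hxy.1 hxy.2)
  have hcop : (Nat.card (VV G)).Coprime (Nat.card (GG G)) := by
    rw [card_VV, card_GG]
    have hp : p.Prime := Fact.out
    have : Module.Finite (ZMod p) V := Module.Finite.of_finite
    rw [Module.natCard_eq_pow_finrank (K := ZMod p) (V := V), Nat.card_zmod]
    exact Nat.Coprime.pow_left _ ((Nat.Prime.coprime_iff_not_dvd hp).2 hG)
  -- orbit representatives
  let Ω := MulAction.orbitRel.Quotient G V
  have hfin : Finite Ω := Quotient.finite _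
  have : Fintype Ω := Fintype.ofFinite Ω
  let rep : Ω → SD G := fun q => ι G (Quotient.out q)
  let S : Finset (SD G) := Finset.univ.image rep
  have hS : ∀ s, s ∈ S ↔ ∃ q : Ω, rep q = s := by
    intro s
    simp [S]
  have hout : ∀ v : V, ∃ g : G, (g : V ≃ₗ[ZMod p] V) v = Quotient.out (Quotient.mk _ v : Ω) := by
    intro v
    have h1 : (Quotient.mk _ (Quotient.out (Quotient.mk _ v : Ω)) : Ω) = Quotient.mk _ v :=
      Quotient.out_eq _
    have h2 := Quotient.exact h1
    obtain ⟨g, hg⟩ := h2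
    exact ⟨g, hg⟩
  have hrep : ∀ v ∈ VV G, ∃! s, s ∈ S ∧ ∃ g ∈ GG G, g * v * g⁻¹ = s := by
    intro x hx
    obtain ⟨v, rfl⟩ := (mem_VV G).1 hx
    obtain ⟨g, hg⟩ := hout v
    refine ⟨rep (Quotient.mk _ v), ⟨(hS _).2 ⟨_, rfl⟩, SemidirectProduct.inr g, ⟨g, rfl⟩, ?_⟩, ?_⟩
    · rw [conj_ι, hg]
    · rintro y ⟨hy, _, ⟨k, rfl⟩, hk⟩
      obtain ⟨q, rfl⟩ := (hS _).1 hy
      rw [conj_ι] at hk
      have h3 := ι_inj G hk
      have h4 : (Quotient.mk _ v : Ω) = q := by
        rw [← Quotient.out_eq q, ← h3]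
        apply Quotient.sound
        exact ⟨k⁻¹, by
          change (((k⁻¹ : G) : V ≃ₗ[ZMod p] V)) ((k : V ≃ₗ[ZMod p] V) v) = v
          rw [← LinearEquiv.mul_apply, ← Subgroup.coe_mul, inv_mul_cancel]
          rfl⟩
      rw [h4]
  have hsum := Cfsg.Agent.S4956.result (VV G) (VV_comm G) (GG G) (isCompl G) hcop S (by
    intro s hs
    obtain ⟨q, rfl⟩ := (hS s).1 hs
    exact ι_mem G _) hrep
  -- the trivial representative
  have h1S : (1 : SD G) ∈ S := by
    obtain ⟨s, ⟨hs, g, hg, hgs⟩, -⟩ := hrep 1 (one_mem _)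
    rw [mul_one, mul_inv_cancel] at hgs
    rw [hgs]
    exact hs
  have hone : kc ↥(GG G ⊓ centralizer ({(1 : SD G)} : Set (SD G))) = kc G := by
    have h1 : GG G ⊓ centralizer ({(1 : SD G)} : Set (SD G)) = GG G := by
      rw [inf_eq_left]
      intro x _
      rw [mem_centralizer_iff]
      intro y hy
      rw [Set.mem_singleton_iff.1 hy, one_mul, mul_one]
    rw [h1]
    exact (kc_congr (MonoidHom.ofInjective
      (SemidirectProduct.inr_injective : Function.Injective
        (SemidirectProduct.inr : G →* SD G)))).symm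
  rw [← Finset.add_sum_erase S _ h1S] at hsum
  change Nat.card (ConjClasses (SD G)) = kc ↥(GG G ⊓ centralizer ({(1 : SD G)} : Set (SD G))) +
    ∑ s ∈ S.erase 1, kc ↥(GG G ⊓ centralizer ({s} : Set (SD G))) at hsum
  rw [hone] at hsum
  -- a nontrivial representative
  obtain ⟨v0, hv0⟩ := exists_ne (0 : V)
  obtain ⟨s0, ⟨hs0, g0, hg0, hgs0⟩, -⟩ := hrep (ι G v0) (ι_mem G v0)
  have hs0' : s0 ≠ 1 := by
    intro h1
    rw [h1, mul_inv_eq_one, mul_eq_left] at hgs0
    exact hv0 (ι_inj G (hgs0.trans (ι_zero G).symm))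
  have hs0S : s0 ∈ S.erase 1 := Finset.mem_erase.2 ⟨hs0', hs0⟩
  have hge : (S.erase 1).card ≤
      ∑ s ∈ S.erase 1, kc ↥(GG G ⊓ centralizer ({s} : Set (SD G))) := by
    have := Finset.card_nsmul_le_sum (S.erase 1)
      (fun s => kc ↥(GG G ⊓ centralizer ({s} : Set (SD G)))) 1 (fun s _ => kc_pos _)
    simpa using this
  have hc1 : 1 ≤ (S.erase 1).card := Finset.card_pos.2 ⟨s0, hs0S⟩
  refine ⟨by omega, fun heq => ?_⟩
  have hVpos : 0 < Nat.card V := Nat.card_pos
  have hle : ∑ s ∈ S.erase 1, kc ↥(GG G ⊓ centralizer ({s} : Set (SD G))) ≤ 1 := by omega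
  have hcard : (S.erase 1).card = 1 := by omega
  obtain ⟨s1, hs1⟩ := Finset.card_eq_one.1 hcard
  have hs01 : s0 = s1 := by
    rw [hs1] at hs0S
    exact Finset.mem_singleton.1 hs0S
  subst hs01
  have htriv : GG G ⊓ centralizer ({s0} : Set (SD G)) = ⊥ := by
    apply eq_bot_of_kc_eq_one
    rw [hs1, Finset.sum_singleton] at hle
    exact le_antisymm hle (kc_pos _)
  -- every nonzero vector is conjugate to `s0`
  have hconj : ∀ v : V, v ≠ 0 → ∃ g : G, ι G ((g : V ≃ₗ[ZMod p] V) v) = s0 := by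
    intro v hv
    obtain ⟨s, ⟨hs, _, ⟨g, rfl⟩, hgs⟩, -⟩ := hrep (ι G v) (ι_mem G v)
    have hs' : s ≠ 1 := by
      intro h1
      rw [h1, mul_inv_eq_one, mul_eq_left] at hgs
      exact hv (ι_inj G (hgs.trans (ι_zero G).symm))
    have h2 : s ∈ S.erase 1 := Finset.mem_erase.2 ⟨hs', hs⟩
    rw [hs1] at h2
    refine ⟨g, ?_⟩
    rw [← conj_ι, hgs]
    exact Finset.mem_singleton.1 h2
  refine ⟨fun v hv w hw => ?_, fun g hg v hv hgv => ?_⟩
  · obtain ⟨a, ha⟩ := hconj v hv
    obtain ⟨b, hb⟩ := hconj w hw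
    refine ⟨(b : V ≃ₗ[ZMod p] V)⁻¹ * a, G.mul_mem (G.inv_mem b.2) a.2, ?_⟩
    have h1 := ι_inj G (ha.trans hb.symm)
    change (b : V ≃ₗ[ZMod p] V).symm ((a : V ≃ₗ[ZMod p] V) v) = w
    rw [LinearEquiv.symm_apply_eq]
    exact h1
  · obtain ⟨a, ha⟩ := hconj v hv
    have h0 : ((a * ⟨g, hg⟩ * a⁻¹ : G) : V ≃ₗ[ZMod p] V) ((a : V ≃ₗ[ZMod p] V) v) =
        (a : V ≃ₗ[ZMod p] V) v := by
      have h3 : ((a * ⟨g, hg⟩ * a⁻¹ : G) : V ≃ₗ[ZMod p] V) * (a : V ≃ₗ[ZMod p] V) =
          (a : V ≃ₗ[ZMod p] V) * g := by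
        rw [Subgroup.coe_mul, Subgroup.coe_mul, Subgroup.coe_inv, inv_mul_cancel_right]
      have h4 := congrArg (fun f : V ≃ₗ[ZMod p] V => f v) h3
      simp only [LinearEquiv.mul_apply] at h4
      rw [h4, hgv]
    have h1 : (SemidirectProduct.inr (a * ⟨g, hg⟩ * a⁻¹) : SD G) ∈
        GG G ⊓ centralizer ({s0} : Set (SD G)) := by
      rw [← ha]
      exact ⟨⟨_, rfl⟩, comm_of_fix G _ _ h0⟩
    rw [htriv, mem_bot] at h1
    have h2 : a * ⟨g, hg⟩ * a⁻¹ = 1 := SemidirectProduct.inr_injective (h1.trans (map_one _).symm)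
    rw [mul_inv_eq_one, mul_eq_left] at h2
    exact congrArg Subtype.val h2

theorem rv_bd (G : Subgroup (V ≃ₗ[ZMod p] V)) (hG : ¬ p ∣ Nat.card G) (h : RV G) :
    kc G ≤ Nat.card V - 1 ∧ (kc G = Nat.card V - 1 → Reg G) :=
  bd_of_le G hG (card_le G hG h)

end Cfsg.Agent.H354.KGL.T1
end
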